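import Cfsg.Agent.H487.CC.PsuChar

/-!
# `PSU₃(q)`, `p ∤ q` (helper487, for S3828)
-/

set_option autoImplicit false
set_option linter.unusedSectionVars false
set_option linter.unusedVariables false

namespace Cfsg.Agent.H487.CCPsu3

open Cfsg Matrix
open Cfsg.Agent.LieClassical.HermBasic Cfsg.Agent.LieClassical.HermSiegel Cfsg.Agent.LieClassical.HermGen
open Cfsg.Agent.ClassicalGeometry.PSUAutBasic
open Cfsg.Agent.ClassicalGeometry.PSUAutSylow
open Cfsg.Agent.H358.U3 (smul_of_perp exists_move Pts mk_mem_Pts card_Pts exists_rep smul_mk' act_zu e2)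
open Cfsg.Agent.CitLFactSU (zu mat_zu zu_sq)
open Cfsg.Agent.H162.CCR
open scoped LinearAlgebra.Projectivization

variable {F : Type*} [Field F] [Fintype F] {q : ℕ}

/-- elements of `p`-power order lift -/
theorem exists_lift' {n p : ℕ} [Fact p.Prime] {x : PSU n F q} {k : ℕ} (hx : x ^ p ^ k = 1) :
    ∃ a : SU n F q, pr n F q a = x ∧ ∃ l : ℕ, a ^ p ^ l = 1 := by
  obtain ⟨a, rfl⟩ := pr_surjective x
  have hfin : Finite (SU n F q) := inferInstance
  set m := orderOf a with hm
  have hm0 : 0 < m := orderOf_pos a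
  obtain ⟨t, m', hm', hmt⟩ := Nat.exists_eq_pow_mul_and_not_dvd hm0.ne' p (Fact.out : p.Prime).ne_one
  have hcop : Nat.Coprime m' (p ^ k) :=
    (((Fact.out : p.Prime).coprime_iff_not_dvd.2 hm').symm).pow_right k
  obtain ⟨j, hj⟩ : ∃ j : ℕ, 1 ≡ j * m' [MOD p ^ k] := by
    rcases Nat.eq_zero_or_pos k with h0 | h0
    · subst h0
      rw [pow_zero]
      exact ⟨0, Nat.modEq_one⟩
    · have h1 : 1 < p ^ k := Nat.one_lt_pow h0.ne' (Fact.out : p.Prime).one_lt
      obtain ⟨j, -, hj⟩ := Nat.exists_mul_mod_eq_one_of_coprime hcop h1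
      refine ⟨j, ?_⟩
      rw [Nat.ModEq, Nat.mod_eq_of_lt h1, mul_comm, hj]
  refine ⟨a ^ (m' * j), ?_, t, ?_⟩
  · rw [map_pow, mul_comm]
    have := pow_eq_pow_iff_modEq (x := pr n F q a) (m := j * m') (n := 1)
    rw [pow_one] at this
    exact (this.2 (hj.of_dvd (orderOf_dvd_of_pow_eq_one hx))).symm
  · rw [← pow_mul, show m' * j * p ^ t = m * j by rw [hmt]; ring, pow_mul, hm,
      pow_orderOf_eq_one, one_pow]

variable {p : ℕ} [hp : Fact p.Prime]

/-- a `p`-element fixing an isotropic line fixes a second one -/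
theorem exists_second (hF : Fintype.card F = q ^ 2) (hpq : ¬ p ∣ q) {a : SU 3 F q} {l : ℕ} (ha : a ^ p ^ l = 1)
    {e : Fin 3 → F} (he0 : e ≠ 0) (he : hermForm 3 F q e e = 0) (h : a ∈ St F q e) :
    ∃ f : Fin 3 → F, f ≠ 0 ∧ hermForm 3 F q f f = 0 ∧ (¬ ∃ c : F, f = c • e) ∧ a ∈ St F q f := by
  have hZ : IsPGroup p (Subgroup.zpowers a) := by
    have h1 : orderOf a ∣ p ^ l := orderOf_dvd_of_pow_eq_one ha
    obtain ⟨j, -, hj⟩ := (Nat.dvd_prime_pow hp.out).1 h1
    exact IsPGroup.of_card (n := j) (by rw [Nat.card_zpowers, hj])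
  have hcard := card_Pts (F := F) hF
  have hfin : Finite (Pts F q) := Nat.finite_of_card_ne_zero (by rw [hcard]; omega)
  have h1 := hZ.card_modEq_card_fixedPoints (Pts F q)
  by_contra hcon
  push Not at hcon
  -- the point
  let P0 : Pts F q := ⟨Projectivization.mk F e he0, (mk_mem_Pts he0).2 he⟩
  have hfix : ∀ g ∈ Subgroup.zpowers a, g • P0 = P0 := by
    intro g hg
    have hgS : g ∈ St F q e := (Subgroup.zpowers_le.2 h) hg
    obtain ⟨c, hc, h2⟩ := hgS
    apply Subtype.ext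
    change g • Projectivization.mk F e he0 = Projectivization.mk F e he0
    rw [smul_mk', Projectivization.mk_eq_mk_iff']
    exact ⟨c, h2.symm⟩
  have hP0 : P0 ∈ MulAction.fixedPoints (Subgroup.zpowers a) (Pts F q) := fun g => hfix g g.2
  have huniq : ∀ P ∈ MulAction.fixedPoints (Subgroup.zpowers a) (Pts F q), P = P0 := by
    intro P hP
    obtain ⟨v, hv, hvv, hvP⟩ := exists_rep P
    by_contra hne
    refine hcon v hv hvv ?_ ?_
    · intro c hc
      apply hne
      apply Subtype.ext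
      rw [← hvP]
      change Projectivization.mk F v hv = Projectivization.mk F e he0
      rw [Projectivization.mk_eq_mk_iff']
      exact ⟨c, hc.symm⟩
    · have h2 := hP ⟨a, Subgroup.mem_zpowers a⟩
      have h3 : a • (P : ℙ F (Fin 3 → F)) = (P : ℙ F (Fin 3 → F)) := congrArg Subtype.val h2
      rw [← hvP, smul_mk', Projectivization.mk_eq_mk_iff'] at h3
      obtain ⟨c, hc⟩ := h3
      exact mem_St_of hv hc.symm
  have h2 : Nat.card (MulAction.fixedPoints (Subgroup.zpowers a) (Pts F q)) = 1 := by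
    rw [Nat.card_eq_one_iff_unique]
    exact ⟨⟨fun x y => Subtype.ext ((huniq x x.2).trans (huniq y y.2).symm)⟩, ⟨⟨P0, hP0⟩⟩⟩
  rw [h2, hcard] at h1
  have h3 : p ∣ q ^ 3 := by
    have h4 := (Nat.modEq_iff_dvd' (by omega)).1 h1.symm
    simpa using h4
  exact hpq (hp.out.dvd_of_dvd_pow h3)

variable {C : Set (PSU 3 F q)}

/-- **(B)** no isotropic line is fixed -/
theorem no_iso (hF : Fintype.card F = q ^ 2) (hq : 3 ≤ q) (hpq : ¬ p ∣ q) (hC : Min p C)
    (hO : pCore p (PSU 3 F q) = ⊥) {a : SU 3 F q} (ha : pr 3 F q a ∈ C) (ha1 : pr 3 F q a ≠ 1) {e : Fin 3 → F}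
    (he0 : e ≠ 0) (he : hermForm 3 F q e e = 0) : a ∉ St F q e := by
  have hfin : Finite (PSU 3 F q) := Quotient.finite _
  intro h
  obtain ⟨k, hk⟩ := hC.pel _ ha
  obtain ⟨b, hb, l, hl⟩ := exists_lift' (p := p) (k := k) (x := pr 3 F q a) (by rw [← hk, pow_orderOf_eq_one])
  have hbe : b ∈ St F q e := by rw [← pr_mem_KK hF, hb, pr_mem_KK hF]; exact h
  obtain ⟨f, hf0, hff, hfe, hbf⟩ := exists_second hF hpq hl he0 he hbe
  have hef : ¬ ∃ c : F, e = c • f := by
    rintro ⟨c, hc⟩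
    have hc0 : c ≠ 0 := by
      rintro rfl
      rw [zero_smul] at hc
      exact he0 hc
    exact hfe ⟨c⁻¹, by rw [hc, smul_smul, inv_mul_cancel₀ hc0, one_smul]⟩
  exact hC.two_overgroups hO ha ha1 (KK_ne_top hF (St_iso_ne_top hF he0 hf0 he hff hfe))
    (KK_ne_top hF (St_iso_ne_top hF hf0 he0 hff he hef)) ((pr_mem_KK hF).2 h) (hb ▸ (pr_mem_KK hF).2 hbf)
    (KK_sup (sup_iso hF hq he0 hf0 he hff hfe))

/-- `pr (transv e ν) = 1` only if `ν = 0` -/
theorem pr_transv_ne (hF : Fintype.card F = q ^ 2) {e : Fin 3 → F} (he0 : e ≠ 0) (he : hermForm 3 F q e e = 0) {ν : F}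
    (hν : ν + ν ^ q = 0) (hν0 : ν ≠ 0) : pr 3 F q (transv hF e he ν hν) ≠ 1 := by
  obtain ⟨f, hff, hef, hfe⟩ := exists_partner hF he0 he
  intro h1
  rw [pr_eq_one_iff] at h1
  obtain ⟨c, hc0, -, hc⟩ := exists_scalar_of_mem_center hF le_rfl h1
  have h2 := hc f
  rw [act_transv, hfe, mul_one] at h2
  have h3 : ν • e = (c - 1) • f := by
    rw [sub_smul, one_smul, ← h2, add_sub_cancel_left]
  have h4 : hermForm 3 F q (ν • e) f = 0 := by rw [h3, herm_smul_left, hff, mul_zero]
  rw [herm_smul_left, hef, mul_one] at h4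
  exact hν0 h4

/-- an involution which is a reflection up to a scalar -/
theorem exists_refl (hF : Fintype.card F = q ^ 2) : ∃ (T : SU 3 F q) (y : Fin 3 → F) (ε κ : F), ε ≠ 0 ∧ T * T = 1 ∧
    pr 3 F q T ≠ 1 ∧ ∀ v, act T v = ε • v + (κ * hermForm 3 F q v y) • y := by
  by_cases h2 : (2 : F) = 0
  · obtain ⟨e, f, H⟩ := exists_frame (n := 3) hF (by omega)
    have he0 : e ≠ 0 := by
      rintro rfl
      have := H.ef
      rw [herm_zero_left] at this
      exact zero_ne_one this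
    obtain ⟨ν, hν0, hν⟩ := exists_trace_zero_ne hF
    refine ⟨transv hF e H.ee ν hν, e, 1, ν, one_ne_zero, ?_, pr_transv_ne hF he0 H.ee hν hν0, ?_⟩
    · apply ext_act
      intro v
      rw [act_mul, act_one, act_transv, act_transv, herm_add_left, herm_smul_left, H.ee, mul_zero, add_zero, add_assoc,
        ← add_smul]
      have h3 : ν * hermForm 3 F q v e + ν * hermForm 3 F q v e = 0 := by
        rw [← two_mul, h2, zero_mul]
      rw [h3, zero_smul, add_zero]
    · intro v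
      rw [act_transv, one_smul]
  · refine ⟨zu hF, e2 F, -1, 2, neg_ne_zero.2 one_ne_zero, zu_sq hF, ?_, ?_⟩
    · intro h1
      rw [pr_eq_one_iff] at h1
      obtain ⟨c, hc0, -, hc⟩ := exists_scalar_of_mem_center hF le_rfl h1
      have h3 := congrFun (hc ![1, 0, 1]) 0
      have h4 := congrFun (hc ![1, 0, 1]) 2
      rw [act_zu] at h3 h4
      simp at h3 h4
      apply h2
      rw [← h4] at h3
      linear_combination -h3
    · intro v
      have h1 : hermForm 3 F q v (e2 F) = v 2 := by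
        rw [e2, herm_single_right hF, one_pow, mul_one]
      rw [act_zu, h1]
      ext i
      fin_cases i
      · simp [e2]
      · simp [e2]
      · simp [e2]
        ring

/-- an eigenvector -/
theorem exists_eig (hF : Fintype.card F = q ^ 2) (hs : IsSimpleGroup (PSU 3 F q)) (hC : Min p C)
    (hO : pCore p (PSU 3 F q) = ⊥) {c : PSU 3 F q} (hc : c ∈ C) (hc1 : c ≠ 1) :
    ∃ a : SU 3 F q, pr 3 F q a ∈ C ∧ pr 3 F q a ≠ 1 ∧ ∃ z : Fin 3 → F, z ≠ 0 ∧ a ∈ St F q z := by
  have hfin : Finite (PSU 3 F q) := Quotient.finite _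
  obtain ⟨T, y, ε, κ, hε, hT, hT1, hact⟩ := exists_refl (q := q) hF
  obtain ⟨d, hd, hd1, hinv⟩ := hC.exists_inverted hO hc hc1 (t := pr 3 F q T) (by rw [← map_mul, hT, map_one]) hT1 hs
  obtain ⟨a, rfl⟩ := pr_surjective d
  refine ⟨a, hd, hd1, ?_⟩
  rw [← map_mul, ← map_inv, ← map_mul, ← map_inv] at hinv
  obtain ⟨Z, hZ, hZe⟩ := exists_center_mul hinv.symm
  obtain ⟨lam, hlam, -, hZact⟩ := exists_scalar_of_mem_center hF le_rfl hZ
  have h1 : ∀ v, act T (act a v) = lam • act a⁻¹ (act T v) := by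
    intro v
    have h2 : act (T * a * T⁻¹) (act T v) = act (a⁻¹ * Z) (act T v) := by rw [hZe]
    rw [act_mul, act_inv_act, act_mul, act_mul, hZact, act_smul] at h2
    exact h2
  obtain ⟨x, hx0, hxy, hxy'⟩ := exists_perp (q := q) y (act a⁻¹ y)
  have hxT : act T x = ε • x := by rw [hact, hxy, mul_zero, zero_smul, add_zero]
  have hay : hermForm 3 F q (act a x) y = 0 := by
    rw [herm_act_left]
    exact hxy'
  have haT : act T (act a x) = ε • act a x := by rw [hact, hay, mul_zero, zero_smul, add_zero]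
  have h2 : act a x = lam • act a⁻¹ x := by
    have h3 := h1 x
    rw [haT, hxT, act_smul, smul_comm] at h3
    exact smul_right_injective _ hε h3
  have h3 : act a (act a x) = lam • x := by
    rw [h2, act_smul, ← act_mul, mul_inv_cancel, act_one]
  by_cases hprop : ∃ c : F, act a x = c • x
  · obtain ⟨c, hc⟩ := hprop
    exact ⟨x, hx0, mem_St_of hx0 hc⟩
  · obtain ⟨z, hz0, hzx, hzax⟩ := exists_perp (q := q) x (act a x)
    have h4 : hermForm 3 F q (act a z) (act a x) = 0 := by rw [herm_act, hzx]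
    have h5 : hermForm 3 F q (act a z) x = 0 := by
      have h6 : hermForm 3 F q (act a z) (act a (act a x)) = 0 := by rw [herm_act, hzax]
      rw [h3, herm_smul_right] at h6
      exact (mul_eq_zero.1 h6).resolve_left (pow_ne_zero _ hlam)
    obtain ⟨c, hc⟩ := line_of_perp hF (linInd_of hx0 hprop) hz0 hzx hzax h5 h4
    exact ⟨z, hz0, mem_St_of hz0 hc⟩

/-- isotropic vectors orthogonal to a nonisotropic one -/
theorem exists_iso_perp (hF : Fintype.card F = q ^ 2) {z : Fin 3 → F} (hz : hermForm 3 F q z z ≠ 0) :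
    ∃ x : Fin 3 → F, x ≠ 0 ∧ hermForm 3 F q x x = 0 ∧ hermForm 3 F q x z = 0 := by
  obtain ⟨w, hw0, hwz, -⟩ := exists_perp (q := q) z z
  by_cases hw : hermForm 3 F q w w = 0
  · exact ⟨w, hw0, hw, hwz⟩
  obtain ⟨u, huz, huw, huu⟩ := exists_third hF hz hw hwz
  have hwu := herm_eq_zero_swap hF huw
  have hfix := herm_self_pow hF (n := 3)
  obtain ⟨δ, hδ⟩ := exists_norm_eq hF (c := -hermForm 3 F q w w / hermForm 3 F q u u)
    (by rw [div_pow, neg_pow_q hF, hfix, hfix])
  refine ⟨w + δ • u, ?_, ?_, ?_⟩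
  · intro h
    have h1 : hermForm 3 F q (w + δ • u) w = 0 := by rw [h, herm_zero_left]
    rw [herm_add_left, herm_smul_left, huw, mul_zero, add_zero] at h1
    exact hw h1
  · rw [herm_add_left, herm_add_right hF, herm_add_right hF, herm_smul_left, herm_smul_left, herm_smul_right,
      herm_smul_right, hwu, huw]
    have h3 : δ * δ ^ q * hermForm 3 F q u u = -hermForm 3 F q w w := by
      rw [hδ, div_mul_cancel₀ _ huu]
    linear_combination h3
  · rw [herm_add_left, herm_smul_left, hwz, huz, mul_zero, add_zero]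

/-- **a second eigenvector** -/
theorem exists_eig_two (hF : Fintype.card F = q ^ 2) {a : SU 3 F q} {z : Fin 3 → F}
    (hz : hermForm 3 F q z z ≠ 0) (haz : a ∈ St F q z)
    (hiso : ∀ e : Fin 3 → F, e ≠ 0 → hermForm 3 F q e e = 0 → a ∉ St F q e) :
    ∃ w : Fin 3 → F, w ≠ 0 ∧ hermForm 3 F q w z = 0 ∧ a ∈ St F q w := by
  have hz0 : z ≠ 0 := by
    rintro rfl
    exact hz (herm_zero_left _)
  obtain ⟨c, hc0, hc⟩ := haz
  obtain ⟨x, hx0, hx, hxz⟩ := exists_iso_perp hF hz
  -- the complement of `z` is invariant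
  have hperp : ∀ v, hermForm 3 F q v z = 0 → hermForm 3 F q (act a v) z = 0 := by
    intro v hv
    have h1 : hermForm 3 F q (act a v) (act a z) = 0 := by rw [herm_act, hv]
    rw [hc, herm_smul_right] at h1
    exact (mul_eq_zero.1 h1).resolve_left (pow_ne_zero _ hc0)
  set x' := act a x with hx'
  have hx'0 : x' ≠ 0 := by rwa [hx', Ne, act_eq_zero]
  have hx'x' : hermForm 3 F q x' x' = 0 := by rw [hx', herm_act, hx]
  have hx'z : hermForm 3 F q x' z = 0 := hperp x hxz
  have hprop : ¬ ∃ c : F, x' = c • x := by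
    rintro ⟨d, hd⟩
    exact hiso x hx0 hx (mem_St_of hx0 hd)
  have hxx'0 : hermForm 3 F q x' x ≠ 0 := herm_ne hF hx0 hx hx'x' hprop
  set κ := hermForm 3 F q x x' with hκ
  have hκ0 : κ ≠ 0 := by
    intro h
    exact hxx'0 (herm_eq_zero_swap hF h)
  have hκq : hermForm 3 F q x' x = κ ^ q := by rw [hκ, ← herm_swap hF]
  -- the coordinates of `a x'`
  have hax'x' : hermForm 3 F q (act a x') x' = κ ^ q := by
    conv_lhs => rw [hx', herm_act]
    exact hκq
  set β := hermForm 3 F q (act a x') x / κ ^ q with hβ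
  set α := κ ^ q / κ with hα
  have hκqq : (κ ^ q) ^ q = κ := pow_q_pow_q hF κ
  have hκq0 : κ ^ q ≠ 0 := pow_ne_zero _ hκ0
  have hdec : act a x' = α • x + β • x' := by
    have h1 : ∃ d : F, act a x' - α • x - β • x' = d • z := by
      refine line_of_perp hF (linInd_of hx0 hprop) hz0 (herm_eq_zero_swap hF hxz) (herm_eq_zero_swap hF hx'z) ?_ ?_
      · rw [herm_sub_left, herm_sub_left, herm_smul_left, herm_smul_left, hx, mul_zero, sub_zero, hκq, hβ,
          div_mul_cancel₀ _ hκq0, sub_self]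
      · rw [herm_sub_left, herm_sub_left, herm_smul_left, herm_smul_left, hx'x', mul_zero, sub_zero, hax'x', ← hκ, hα,
          div_mul_cancel₀ _ hκ0, sub_self]
    obtain ⟨d, hd⟩ := h1
    have h2 : hermForm 3 F q (act a x' - α • x - β • x') z = 0 := by
      rw [herm_sub_left, herm_sub_left, herm_smul_left, herm_smul_left, hxz, hx'z, hperp x' hx'z]
      ring
    rw [hd, herm_smul_left] at h2
    have hd0 : d = 0 := (mul_eq_zero.1 h2).resolve_right hz
    rw [hd0, zero_smul, sub_sub, sub_eq_zero] at hd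
    exact hd
  -- the norm relation
  have hrel : (β * κ) ^ q = -(β * κ) := by
    have h1 : hermForm 3 F q (act a x') (act a x') = 0 := by rw [herm_act, hx'x']
    conv_lhs at h1 => rw [hdec]
    rw [herm_add_left, herm_add_right hF, herm_add_right hF, herm_smul_left, herm_smul_left, herm_smul_left,
      herm_smul_left, herm_smul_right, herm_smul_right, herm_smul_right, herm_smul_right, hx, hx'x', ← hκ, hκq] at h1
    have h2 : α * κ = κ ^ q := by rw [hα, div_mul_cancel₀ _ hκ0]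
    have h3 : α ^ q * κ ^ q = κ := by rw [← mul_pow, h2, hκqq]
    rw [mul_pow]
    linear_combination h1 - β ^ q * h2 - β * h3
  obtain ⟨ι, hι0, hι⟩ := exists_trace_zero_ne hF
  have hιq : ι ^ q = -ι := by linear_combination hι
  obtain ⟨Y, hY⟩ := quad_root hF (t := β * κ / ι) (n := κ ^ q * κ / (ι * ι))
    (by rw [div_pow, hrel, hιq, neg_div_neg_eq]) (by
      rw [div_pow, mul_pow, hκqq, mul_pow, hιq, neg_mul_neg, mul_comm κ])
  set μ := ι / κ * Y with hμ
  have hμe : μ * μ - β * μ = α := by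
    have h1 : μ * μ - β * μ - α = (ι * ι) / (κ * κ) * (Y * Y - β * κ / ι * Y - κ ^ q * κ / (ι * ι)) := by
      rw [hμ, hα]
      field_simp
    rw [hY, mul_zero] at h1
    linear_combination h1
  refine ⟨x' + (μ - β) • x, ?_, ?_, ?_⟩
  · intro h
    apply hprop
    refine ⟨-(μ - β), ?_⟩
    rw [neg_smul, eq_neg_iff_add_eq_zero]
    exact h
  · rw [herm_add_left, herm_smul_left, hx'z, hxz, mul_zero, add_zero]
  · refine mem_St_of (c := μ) ?_ ?_
    · intro h
      apply hprop
      refine ⟨-(μ - β), ?_⟩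
      rw [neg_smul, eq_neg_iff_add_eq_zero]
      exact h
    · rw [act_add, act_smul, ← hx', hdec, smul_add, smul_smul, ← hμe]
      rw [show μ * (μ - β) = μ * μ - β * μ by ring, sub_smul μ β]
      abel

/-- **`p ∤ q`** -/
theorem crow_cross (hF : Fintype.card F = q ^ 2) (hq : 3 ≤ q) (hpq : ¬ p ∣ q) (hs : IsSimpleGroup (PSU 3 F q))
    (hC : Min p C) (hO : pCore p (PSU 3 F q) = ⊥) : ∀ c ∈ C, c = 1 := by
  have hfin : Finite (PSU 3 F q) := Quotient.finite _
  intro c hc
  by_contra hc1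
  obtain ⟨a, ha, ha1, z, hz0, haz⟩ := exists_eig hF hs hC hO hc hc1
  have hiso : ∀ e : Fin 3 → F, e ≠ 0 → hermForm 3 F q e e = 0 → a ∉ St F q e := fun e he0 he =>
    no_iso hF hq hpq hC hO ha ha1 he0 he
  have hzz : hermForm 3 F q z z ≠ 0 := fun h => hiso z hz0 h haz
  obtain ⟨w, hw0, hwz, haw⟩ := exists_eig_two hF hzz haz hiso
  have hww : hermForm 3 F q w w ≠ 0 := fun h => hiso w hw0 h haw
  exact hC.two_overgroups hO ha ha1 (KK_ne_top hF (St_non_ne_top hF hzz hww hwz))
    (KK_ne_top hF (St_non_ne_top hF hww hzz (herm_eq_zero_swap hF hwz))) ((pr_mem_KK hF).2 haz) ((pr_mem_KK hF).2 haw)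
    (KK_sup (sup_non hF hq hzz hww hwz))

/-- **The row of `PSU₃(q)`.** -/
theorem crow_psu3 {F : Type} [Field F] [Fintype F] {q : ℕ} (hF : Fintype.card F = q ^ 2) (hq : 3 ≤ q) (p : ℕ)
    [hp : Fact p.Prime] : CRow p (PSU 3 F q) := by
  have hfin : Finite (PSU 3 F q) := Quotient.finite _
  have hs : IsSimpleGroup (PSU 3 F q) := Cfsg.Agent.H242.StrP.FC.simple_psu hF le_rfl (by omega)
  have hO : pCore p (PSU 3 F q) = ⊥ := pCore_eq_bot_of_simple (Cfsg.Agent.H242.StrP.FC.not_comm_psu hs) p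
  intro C hC
  by_cases hpq : p ∣ q
  · obtain ⟨r, hr⟩ := CharP.exists F
    obtain ⟨k, hrp, hk⟩ := FiniteField.card F r
    have hrF : Fact r.Prime := ⟨hrp⟩
    have h1 : p = r := by
      have h2 : p ∣ r ^ (k : ℕ) := by
        rw [← hk, hF]
        exact dvd_pow hpq (by norm_num)
      exact (Nat.prime_dvd_prime_iff_eq hp.out hrp).1 (hp.out.dvd_of_dvd_pow h2)
    subst h1
    exact crow_char hF hq hC hO
  · exact crow_cross hF hq hpq hs hC hO

end Cfsg.Agent.H487.CCPsu3
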